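import Cfsg.Agent.Clifford.CoprimeDegree
import Cfsg.Agent.CharBasics.ItoConverse
import Cfsg.Agent.CoprimeAction.Invariant
import Cfsg.Agent.Hall.Basic

/-!
Characters of `p'`-degree over a character of a normal subgroup, and the fixed points of a `p`-group acting
on a `q'`-group that is normalized by a `q`-group.
-/

set_option autoImplicit false
set_option linter.style.haveILetI false
set_option linter.unusedSectionVars false

namespace CfsgLib.PQDegree

open Cfsg CfsgLib.CharBasics CfsgLib.CoprimeDegree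
open scoped Pointwise commutatorElement

variable {G : Type*} [Group G] [Finite G] {p : ℕ} [hp : Fact p.Prime]

theorem exists_over (H : Subgroup G) [Fintype H] (hi : ¬ p ∣ H.index) (ψ : IrrCharacter H)
    (hψ : ¬ p ∣ charDegree (ψ : H → ℂ)) (N : Subgroup G) [Fintype N] (hNH : N ≤ H) (θ : IrrCharacter N)
    (hθ : classInner (fun n : N => (ψ : H → ℂ) ⟨(n : G), hNH n.2⟩) (θ : N → ℂ) ≠ 0) :
    ∃ χ : IrrCharacter G, ¬ p ∣ charDegree (χ : G → ℂ) ∧
      classInner (fun n : N => (χ : G → ℂ) n) (θ : N → ℂ) ≠ 0 := by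
  classical
  haveI := Fintype.ofFinite G
  obtain ⟨r, f, hf, hΨ⟩ := exists_decomp (isCharacter_indFun H (isCharacter_of_irr ψ.2))
  obtain ⟨i, hi'⟩ : ∃ i, ¬ p ∣ charDegree (f i) := by
    by_contra hcon
    push Not at hcon
    have h1 := congrFun hΨ 1
    rw [indFun_apply_one, Finset.sum_apply, apply_one (isCharacter_of_irr ψ.2),
      Finset.sum_congr rfl fun i _ => apply_one (isCharacter_of_irr (hf i)), ← Nat.cast_mul, ← Nat.cast_sum,
      Nat.cast_inj] at h1
    have h2 : p ∣ H.index * charDegree (ψ : H → ℂ) := h1 ▸ Finset.dvd_sum fun i _ => hcon i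
    exact (hp.out.dvd_mul.1 h2).elim hi hψ
  have hne : classInner (indFun H (ψ : H → ℂ)) (f i) ≠ 0 := by
    rw [hΨ, classInner_sum_left]
    choose m hm using fun j => classInner_characters_nat (isCharacter_of_irr (hf j)) (isCharacter_of_irr (hf i))
    rw [Finset.sum_congr rfl fun j _ => hm j, ← Nat.cast_sum, Nat.cast_ne_zero]
    have h1 : m i = 1 := by
      have := hm i
      rw [classInner_self (hf i)] at this
      exact_mod_cast this.symm
    have := Finset.single_le_sum (f := m) (fun j _ => Nat.zero_le _) (Finset.mem_univ i)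
    omega
  rw [classInner_indFun H _ (isClassFunction (isCharacter_of_irr (hf i))), classInner_comm, Ne, map_eq_zero] at hne
  obtain ⟨R, hR, hRe⟩ := CfsgLib.Clifford.exists_eq_add_of_constituent
    (CfsgLib.Clifford.isCharacter_restrict (isCharacter_of_irr (hf i)) H) ψ.2 hne
  refine ⟨⟨f i, hf i⟩, hi', ?_⟩
  have hres : (fun n : N => f i n) =
      (fun n : N => (ψ : H → ℂ) ⟨(n : G), hNH n.2⟩) + fun n : N => R ⟨(n : G), hNH n.2⟩ :=
    funext fun n => congrFun hRe ⟨(n : G), hNH n.2⟩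
  show classInner (fun n : N => f i n) (θ : N → ℂ) ≠ 0
  rw [hres]
  exact CfsgLib.Clifford.classInner_add_ne_zero_left
    (CfsgLib.Clifford.isCharacter_comp (isCharacter_of_irr ψ.2) (Subgroup.inclusion hNH))
    (CfsgLib.Clifford.isCharacter_comp hR (Subgroup.inclusion hNH)) (isCharacter_of_irr θ.2) hθ

theorem not_dvd_inertia {q : ℕ} (N : Subgroup G) [N.Normal] [Fintype N] (χ : IrrCharacter G) (θ : IrrCharacter N)
    (hne : classInner (fun n : N => (χ : G → ℂ) n) (θ : N → ℂ) ≠ 0) (hq : ¬ q ∣ charDegree (χ : G → ℂ)) :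
    ¬ q ∣ (CfsgLib.Clifford.inertia (G := G) (θ : N → ℂ)).index := by
  haveI := Fintype.ofFinite G
  intro hd
  obtain ⟨m, hm⟩ := classInner_characters_nat
    (CfsgLib.Clifford.isCharacter_restrict (isCharacter_of_irr χ.2) N) (isCharacter_of_irr θ.2)
  have h1 := CfsgLib.Clifford.restrict_one_eq χ.2 θ.2 hne
  rw [hm, apply_one (isCharacter_of_irr χ.2), apply_one (isCharacter_of_irr θ.2), ← Nat.cast_mul, ← Nat.cast_mul,
    Nat.cast_inj] at h1
  exact hq (h1 ▸ ((hd.mul_left m).mul_right _))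

/-- In a normal subgroup, a subgroup contributes an index dividing its own. -/
theorem relIndex_dvd_index_of_normal_right (I T : Subgroup G) [T.Normal] : (I ⊓ T).relIndex T ∣ I.index := by
  have h1 := CfsgLib.Hall.card_sup_mul_card_inf T I
  have h2 := Subgroup.relIndex_mul_index (le_sup_right : I ≤ T ⊔ I)
  have h3 : Nat.card ↥(T ⊔ I) = Nat.card ↥I * I.relIndex (T ⊔ I) := by
    rw [← Subgroup.relIndex_bot_left (H := T ⊔ I), ← Subgroup.relIndex_bot_left (H := I)]
    exact (Subgroup.relIndex_mul_relIndex _ _ _ bot_le le_sup_right).symm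
  have h4 : Nat.card ↥T = Nat.card ↥(I ⊓ T) * (I ⊓ T).relIndex T := by
    rw [← Subgroup.relIndex_bot_left (H := T), ← Subgroup.relIndex_bot_left (H := I ⊓ T)]
    exact (Subgroup.relIndex_mul_relIndex _ _ _ bot_le inf_le_right).symm
  refine ⟨(T ⊔ I).index, ?_⟩
  rw [← h2]
  congr 1
  refine Nat.eq_of_mul_eq_mul_left (Nat.mul_pos (Nat.card_pos (α := I)) (Nat.card_pos (α := ↥(I ⊓ T)))) ?_
  calc Nat.card ↥I * Nat.card ↥(I ⊓ T) * I.relIndex (T ⊔ I)
      = Nat.card ↥(T ⊔ I) * Nat.card ↥(T ⊓ I : Subgroup G) := by rw [h3, inf_comm T I]; ring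
    _ = Nat.card ↥I * Nat.card ↥(I ⊓ T) * (I ⊓ T).relIndex T := by rw [h1, h4]; ring

section Action

variable {q : ℕ} [hq : Fact q.Prime] (S R L : Subgroup G)

/-- An invariant subgroup of index prime to `q` contains a conjugate of `R` by a fixed point. -/
theorem exists_conj_le (hS : IsPGroup p S) (hR : IsPGroup q R) (hSR : S ≤ Subgroup.normalizer (R : Set G))
    [L.Normal] (hLp : ¬ p ∣ Nat.card L) (hLq : ¬ q ∣ Nat.card L) (hpq : p ≠ q) (I : Subgroup G)
    (hI : I ≤ L ⊔ R) (hSI : S ≤ Subgroup.normalizer (I : Set G)) (hidx : ¬ q ∣ I.relIndex (L ⊔ R)) :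
    ∃ c ∈ L ⊓ Subgroup.centralizer (S : Set G), ∀ r ∈ R, c * r * c⁻¹ ∈ I := by
  classical
  set T := L ⊔ R with hT
  obtain ⟨i, hiR⟩ := IsPGroup.iff_card.1 hR
  have hLR : L ⊓ R = ⊥ := Subgroup.inf_eq_bot_of_coprime (by
    rw [hiR]; exact ((hq.out.coprime_iff_not_dvd.2 hLq).symm).pow_right i)
  have hcT : Nat.card T = Nat.card L * Nat.card R := by
    have h := CfsgLib.Hall.card_sup_mul_card_inf L R
    rwa [hLR, Subgroup.card_bot, mul_one] at h
  have hpT : ¬ p ∣ Nat.card T := by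
    rw [hcT, hiR, hp.out.dvd_mul]
    rintro (h | h)
    · exact hLp h
    · exact hpq ((Nat.prime_dvd_prime_iff_eq hp.out hq.out).1 (hp.out.dvd_of_dvd_pow h))
  obtain ⟨a, ha⟩ := IsPGroup.iff_card.1 hS
  have hcopT : (Nat.card S).Coprime (Nat.card T) := by
    rw [ha]; exact (hp.out.coprime_iff_not_dvd.2 hpT).pow_left a
  have hsolvS : Group.IsSolvable S := by haveI := hS.isNilpotent; infer_instance
  have hfac : (Nat.card T).factorization q = i := by
    rw [hcT, hiR, Nat.factorization_mul Nat.card_pos.ne' (pow_ne_zero _ hq.out.ne_zero), Finsupp.add_apply,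
      Nat.factorization_eq_zero_of_not_dvd hLq, zero_add, hq.out.factorization_pow, Finsupp.single_eq_same]
  have hfacI : (Nat.card I).factorization q = i := by
    have h : Nat.card T = Nat.card I * I.relIndex T := by
      rw [← Subgroup.relIndex_bot_left (H := T), ← Subgroup.relIndex_bot_left (H := I)]
      exact (Subgroup.relIndex_mul_relIndex _ _ _ bot_le hI).symm
    have hr0 : I.relIndex T ≠ 0 := fun e => by
      rw [e, mul_zero] at h
      exact Nat.card_pos.ne' h
    have h' := congrArg (fun n => n.factorization q) h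
    simp only [hfac, Nat.factorization_mul Nat.card_pos.ne'
      hr0, Finsupp.add_apply,
      Nat.factorization_eq_zero_of_not_dvd hidx, add_zero] at h'
    exact h'.symm
  obtain ⟨P₁, hP₁⟩ := CfsgLib.CoprimeAction.exists_invariant_sylow hSI
    (hcopT.coprime_dvd_right (Subgroup.card_dvd_of_le hI)) (Or.inl hsolvS) q
  obtain ⟨P₁', hP₁'⟩ := CfsgLib.CoprimeAction.exists_sylow_map (K := T) ((Subgroup.map_subtype_le (P₁ : Subgroup I)).trans hI)
    (show Nat.card ↥((P₁ : Subgroup I).map I.subtype) = q ^ (Nat.card T).factorization q by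
      rw [Subgroup.card_map_of_injective I.subtype_injective, P₁.card_eq_multiplicity, hfac, hfacI])
  obtain ⟨P₀, hP₀⟩ := CfsgLib.CoprimeAction.exists_sylow_map (K := T) (le_sup_right : R ≤ L ⊔ R)
    (show Nat.card R = q ^ (Nat.card T).factorization q by rw [hiR, hfac])
  have hLn : S ≤ Subgroup.normalizer (T : Set G) := by
    refine fun s hs => Subgroup.mem_normalizer_fintype fun t ht => ?_
    obtain ⟨l, hl, r, hr, rfl⟩ := Subgroup.mem_sup_of_normal_left.1 ht
    rw [show s * (l * r) * s⁻¹ = (s * l * s⁻¹) * (s * r * s⁻¹) by group]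
    exact Subgroup.mul_mem_sup ((inferInstance : L.Normal).conj_mem l hl s)
      ((Subgroup.mem_normalizer_iff.1 (hSR hs) r).1 hr)
  obtain ⟨c, hcS, hcP⟩ := CfsgLib.CoprimeAction.invariant_sylow_conj hLn hcopT (Or.inl hsolvS) P₀ P₁'
    (by rw [hP₀]; exact hSR) (by rw [hP₁']; exact hP₁)
  obtain ⟨l, hl, r₀, hr₀, hlr⟩ := Subgroup.mem_sup_of_normal_left.1 c.2
  have hlS : l ∈ Subgroup.centralizer (S : Set G) := by
    rw [Subgroup.mem_centralizer_iff]
    intro s hs
    have h1 : s * (l * r₀) * s⁻¹ = l * r₀ := by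
      rw [hlr, Subgroup.mem_centralizer_iff.1 hcS s hs, mul_inv_cancel_right]
    have h2 : l⁻¹ * (s * l * s⁻¹) = r₀ * (s * r₀ * s⁻¹)⁻¹ := by
      calc l⁻¹ * (s * l * s⁻¹) = l⁻¹ * (s * (l * r₀) * s⁻¹) * (s * r₀ * s⁻¹)⁻¹ := by group
        _ = r₀ * (s * r₀ * s⁻¹)⁻¹ := by rw [h1]; group
    have h3 : l⁻¹ * (s * l * s⁻¹) ∈ L ⊓ R :=
      ⟨L.mul_mem (L.inv_mem hl) ((inferInstance : L.Normal).conj_mem l hl s),
        h2 ▸ R.mul_mem hr₀ (R.inv_mem ((Subgroup.mem_normalizer_iff.1 (hSR hs) r₀).1 hr₀))⟩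
    rw [hLR, Subgroup.mem_bot, inv_mul_eq_one] at h3
    exact (mul_inv_eq_iff_eq_mul.1 h3.symm)
  refine ⟨l, ⟨hl, hlS⟩, fun r hr => ?_⟩
  have hmem : (c : G) * (r₀⁻¹ * r * r₀) * (c : G)⁻¹ ∈ (P₁ : Subgroup I).map I.subtype := by
    rw [← hP₁', ← hcP, CfsgLib.CoprimeAction.sylow_map_conj, hP₀]
    exact ⟨r₀⁻¹ * r * r₀, R.mul_mem (R.mul_mem (R.inv_mem hr₀) hr) hr₀, rfl⟩
  rw [← hlr, show l * r₀ * (r₀⁻¹ * r * r₀) * (l * r₀)⁻¹ = l * r * l⁻¹ by group] at hmem
  exact Subgroup.map_subtype_le _ hmem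

/-- If every `S`-invariant character of `L` is `R`-invariant, `R` centralizes the fixed points of `S`. -/
theorem centralizer_le (hS : IsPGroup p S) (hR : IsPGroup q R) (hSR : S ≤ Subgroup.normalizer (R : Set G))
    [L.Normal] [Fintype L] (hLp : ¬ p ∣ Nat.card L) (hLq : ¬ q ∣ Nat.card L)
    (hinv : ∀ θ : IrrCharacter L, S ≤ CfsgLib.Clifford.inertia (G := G) (θ : L → ℂ) →
      R ≤ CfsgLib.Clifford.inertia (G := G) (θ : L → ℂ)) :
    L ⊓ Subgroup.centralizer (S : Set G) ≤ Subgroup.centralizer (R : Set G) := by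
  classical
  haveI : Fintype G := Fintype.ofFinite G
  set A := S ⊔ R with hA
  obtain ⟨a, ha⟩ := IsPGroup.iff_card.1 hS
  obtain ⟨b, hb⟩ := IsPGroup.iff_card.1 hR
  set N := Subgroup.normalizer (R : Set G)
  have hSN : S ≤ N := hSR
  have hRN : R ≤ N := Subgroup.le_normalizer
  haveI hRn : (R.subgroupOf N).Normal := Subgroup.normal_in_normalizer
  have hRA : (R.subgroupOf A).Normal :=
    Subgroup.normal_subgroupOf_of_le_normalizer (sup_le hSR Subgroup.le_normalizer)
  let g : S →* ↥A ⧸ R.subgroupOf A := (QuotientGroup.mk' _).comp (Subgroup.inclusion le_sup_left)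
  have hg : Function.Surjective g := by
    intro y
    obtain ⟨⟨y, hy⟩, rfl⟩ := QuotientGroup.mk'_surjective _ y
    obtain ⟨s, hs, r, hr, rfl⟩ := CfsgLib.CoprimeAction.exists_mul_of_mem_sup hSR hy
    exact ⟨⟨s, hs⟩, QuotientGroup.eq.2 (show s⁻¹ * (s * r) ∈ R by simpa using hr)⟩
  have hsolvR : Group.IsSolvable R := by haveI := hR.isNilpotent; infer_instance
  have hsolvS : Group.IsSolvable S := by haveI := hS.isNilpotent; infer_instance
  have hsolvA : Group.IsSolvable A := by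
    haveI := hRA
    refine (Group.isSolvable_iff_subgroup_quotient (R.subgroupOf A)).mpr ⟨?_, Group.isSolvable_of_surjective hg⟩
    exact Group.isSolvable_of_surjective
      (f := (Subgroup.subgroupOfEquivOfLe (le_sup_right : R ≤ A)).symm.toMonoidHom) (MulEquiv.surjective _)
  have hcopA : (Nat.card L).Coprime (Nat.card A) := by
    have h1 : Nat.card A ∣ Nat.card R * Nat.card S := by
      rw [← Subgroup.card_mul_index (R.subgroupOf A),
        Nat.card_congr (Subgroup.subgroupOfEquivOfLe (le_sup_right : R ≤ A)).toEquiv]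
      refine mul_dvd_mul_left _ ?_
      haveI := hRA
      rw [Subgroup.index_eq_card]
      exact Subgroup.card_dvd_of_surjective g hg
    refine Nat.Coprime.coprime_dvd_right h1 ?_
    rw [ha, hb]
    exact Nat.Coprime.mul_right ((hq.out.coprime_iff_not_dvd.2 hLq).symm.pow_right b)
      ((hp.out.coprime_iff_not_dvd.2 hLp).symm.pow_right a)
  have hcopS : (Nat.card L).Coprime (Nat.card S) :=
    hcopA.coprime_dvd_right (Subgroup.card_dvd_of_le le_sup_left)
  let φA : A →* MulAut L := MulAut.conjNormal.comp A.subtype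
  let φS : S →* MulAut L := MulAut.conjNormal.comp S.subtype
  have hIn : ∀ (θ : IrrCharacter L) (H : Subgroup G),
      CfsgLib.Blocks.IsInvariant (MulAut.conjNormal.comp H.subtype : H →* MulAut L) (θ : L → ℂ) ↔
        H ≤ CfsgLib.Clifford.inertia (G := G) (θ : L → ℂ) := by
    intro θ H
    constructor
    · intro h x hx
      refine CfsgLib.Clifford.mem_inertia.2 (funext fun n => ?_)
      rw [CfsgLib.Clifford.conjFun_eq_comp]
      exact h ⟨x, hx⟩ n
    · intro h x n
      have := congrFun (CfsgLib.Clifford.mem_inertia.1 (h x.2)) n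
      rw [CfsgLib.Clifford.conjFun_eq_comp] at this
      exact this
  have hcount : Nat.card {K : ConjClasses L // Cfsg.Agent.S4445.FixedClass φA K} =
      Nat.card {K : ConjClasses L // Cfsg.Agent.S4445.FixedClass φS K} := by
    rw [← Cfsg.Agent.S4445.count _ L A φA rfl hcopA hsolvA, ← Cfsg.Agent.S4445.count _ L S φS rfl hcopS hsolvS]
    refine Nat.card_congr (Equiv.subtypeEquivRight fun θ => ?_)
    rw [hIn, hIn]
    exact ⟨fun h => le_sup_left.trans h, fun h => sup_le h (hinv θ h)⟩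
  have himp : ∀ K : ConjClasses L, Cfsg.Agent.S4445.FixedClass φA K → Cfsg.Agent.S4445.FixedClass φS K :=
    fun K h s k hk => h ⟨s, Subgroup.mem_sup_left s.2⟩ k hk
  have hall : ∀ K : ConjClasses L, Cfsg.Agent.S4445.FixedClass φS K → Cfsg.Agent.S4445.FixedClass φA K := by
    intro K hK
    let ι : {K : ConjClasses L // Cfsg.Agent.S4445.FixedClass φA K} →
        {K : ConjClasses L // Cfsg.Agent.S4445.FixedClass φS K} := fun X => ⟨X.1, himp _ X.2⟩
    have hι : Function.Injective ι := fun X Y h => Subtype.ext (congrArg (fun Z => Z.1) h)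
    haveI := Fintype.ofFinite (ConjClasses L)
    have hb' : Function.Bijective ι := by
      rw [Nat.bijective_iff_injective_and_card]
      exact ⟨hι, hcount⟩
    obtain ⟨X, hX⟩ := hb'.2 ⟨K, hK⟩
    rw [← show X.1 = K from congrArg Subtype.val hX]
    exact X.2
  -- every fixed point is conjugate to one centralized by `R`
  set M := L ⊓ Subgroup.centralizer (S : Set G) with hM
  have hcover : ∀ m : M, ∃ t : M, t⁻¹ * m * t ∈ (Subgroup.centralizer (R : Set G)).subgroupOf M := by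
    rintro ⟨m, hmL, hmS⟩
    have hfix : Cfsg.Agent.S4445.FixedClass φS (ConjClasses.mk (⟨m, hmL⟩ : L)) := by
      intro s k hk
      have h2 := MonoidHom.map_isConj (φS s).toMonoidHom (ConjClasses.mk_eq_mk_iff_isConj.1 hk)
      have hfm : φS s ⟨m, hmL⟩ = ⟨m, hmL⟩ := Subtype.ext (by
        show ((MulAut.conjNormal (s : G) (⟨m, hmL⟩ : L) : L) : G) = m
        rw [MulAut.conjNormal_apply]
        show (s : G) * m * (s : G)⁻¹ = m
        rw [Subgroup.mem_centralizer_iff.1 hmS s s.2, mul_inv_cancel_right])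
      simp only [MulEquiv.coe_toMonoidHom, hfm] at h2
      exact ConjClasses.mk_eq_mk_iff_isConj.2 h2
    have hfixA := hall _ hfix
    have hAL : A ≤ Subgroup.normalizer (L : Set G) := by
      rw [Subgroup.normalizer_eq_top_iff.2 ‹L.Normal›]; exact le_top
    let X : Set (ConjPt G) := {y | ∃ k ∈ L, ConjPt.mk (k * m * k⁻¹) = y}
    have htr : ∀ x ∈ X, ∀ y ∈ X, ∃ k ∈ L, k • x = y := by
      rintro _ ⟨k, hk, rfl⟩ _ ⟨l, hl, rfl⟩
      refine ⟨l * k⁻¹, L.mul_mem hl (L.inv_mem hk), ?_⟩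
      show (l * k⁻¹) * (k * m * k⁻¹) * (l * k⁻¹)⁻¹ = l * m * l⁻¹
      group
    have hAX : ∀ a ∈ A, ∀ x ∈ X, a • x ∈ X := by
      rintro a ha _ ⟨k, hk, rfl⟩
      have h3 := hfixA ⟨a, ha⟩ (⟨k, hk⟩ * ⟨m, hmL⟩ * ⟨k, hk⟩⁻¹)
        (ConjClasses.mk_eq_mk_iff_isConj.2 (isConj_iff.2 ⟨(⟨k, hk⟩ : L), rfl⟩).symm)
      obtain ⟨l, hl⟩ := isConj_iff.1 (ConjClasses.mk_eq_mk_iff_isConj.1 h3).symm
      refine ⟨l, l.2, ?_⟩
      show (l : G) * m * (l : G)⁻¹ = a * (k * m * k⁻¹) * a⁻¹
      have h4 : (l : G) * m * (l : G)⁻¹ =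
          ((MulAut.conjNormal a (⟨k, hk⟩ * ⟨m, hmL⟩ * ⟨k, hk⟩⁻¹ : L) : L) : G) := congrArg Subtype.val hl
      rw [MulAut.conjNormal_apply] at h4
      exact h4
    obtain ⟨d, hd, hdA⟩ := CfsgLib.CoprimeAction.exists_fixed (A := A) (K := L) (α := ConjPt G) hAL
      hcopA.symm (Or.inl hsolvA) X ⟨_, 1, L.one_mem, rfl⟩
      (fun k hk => by
        rintro _ ⟨l, hl, rfl⟩
        refine ⟨k * l, L.mul_mem hk hl, ?_⟩
        show (k * l) * m * (k * l)⁻¹ = k * (l * m * l⁻¹) * k⁻¹
        group) hAX htr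
    have hmX : ConjPt.mk m ∈ X := ⟨1, L.one_mem, by show (1 : G) * m * 1⁻¹ = m; group⟩
    obtain ⟨c, hc, hcd⟩ := CfsgLib.CoprimeAction.fixed_transitive (A := S) (K := L) (α := ConjPt G)
      (le_sup_left.trans hAL) hcopS.symm (Or.inl hsolvS) X (fun a ha => hAX a (Subgroup.mem_sup_left ha)) htr
      hmX hd
      (fun s hs => by
        show s * m * s⁻¹ = m
        rw [Subgroup.mem_centralizer_iff.1 hmS s hs, mul_inv_cancel_right])
      (fun s hs => hdA s (Subgroup.mem_sup_left hs))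
    refine ⟨⟨c⁻¹, M.inv_mem hc⟩, ?_⟩
    rw [Subgroup.mem_subgroupOf, Subgroup.mem_centralizer_iff]
    intro r hr
    have h5 : c * m * c⁻¹ = d.val := hcd
    have h6 : r * d.val * r⁻¹ = d.val := hdA r (Subgroup.mem_sup_right hr)
    show r * ((c⁻¹)⁻¹ * m * c⁻¹) = (c⁻¹)⁻¹ * m * c⁻¹ * r
    rw [inv_inv, h5]
    exact mul_inv_eq_iff_eq_mul.1 h6
  have htop := CfsgLib.TwoClasses.eq_top_of_conj_cover _ hcover
  intro m hm
  exact Subgroup.mem_subgroupOf.1 (htop.symm ▸ Subgroup.mem_top (⟨m, hm⟩ : M))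

end Action

end CfsgLib.PQDegree
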